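import Cfsg.Agent.Lib.D4.Basic
import Cfsg.Agent.Lib.D4.BBa
import Cfsg.Agent.Lib.TwoGrp.Pres
import Cfsg.Agent.S3309

/-! Non-solvable centralisers of involutions: the outer case.  See `plans/D4.md`. -/

set_option autoImplicit false
set_option linter.unusedSectionVars false

namespace CfsgLib.D4

open Matrix Cfsg Cfsg.Geo CfsgLib.Asch
open scoped MatrixGroups commutatorElement

variable {G K : Type*} [Group G] [Finite G] [Field K] [IsAlgClosed K] {π : G →* PG4 K}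

namespace BB

open Subgroup

theorem Lz_le (z : G) : Lz π z ≤ Cz π z :=
  commutator_le.2 fun _ ha _ hb => by
    rw [commutatorElement_def]
    exact mul_mem (mul_mem (mul_mem ha hb) (inv_mem ha)) (inv_mem hb)

theorem conj_Lz {z g x : G} (e : g * z = z * g) (hx : x ∈ Lz π z) : g * x * g⁻¹ ∈ Lz π z := by
  have := conj_mem_Lz hx g
  rwa [e, mul_inv_cancel_right] at this

theorem Lz_conj (z k : G) : Lz π (k * z * k⁻¹) = (Lz π z).map (MulAut.conj k).toMonoidHom := by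
  ext x
  constructor
  · intro hx
    have := conj_mem_Lz hx k⁻¹
    refine ⟨k⁻¹ * x * k⁻¹⁻¹, by simpa [mul_assoc] using this, by simp [mul_assoc]⟩
  · rintro ⟨y, hy, rfl⟩
    exact conj_mem_Lz hy k

theorem zc_comm (hx : Cx π) {z c l : G} (hc : c ∈ Zc π z) (hl : l ∈ Lz π z) : c * l = l * c :=
  ((Com.zc (Lz_le z hl) hc).comm hx.inj).symm

theorem com_pow (a : G) (n : ℕ) : Com π (a ^ n) a := (Cz π a).pow_mem (com_self a) n

theorem not_refl (hr : NR π) (z : G) : ¬ Refl π z := hr z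

theorem dec_two (hx : Cx π) {z g : G} (h : Beta π z) (hg : Com π g z) {k : ℕ}
    (e : g ^ 2 ^ k = 1) :
    ∃ c ∈ Zc π z, ∃ l ∈ Lz π z, g = c * l ∧ c ^ 2 ^ k = 1 ∧ l * l = 1 := by
  obtain ⟨c, hc, l, hl, rfl⟩ := h.dec g hg
  rw [Commute.mul_pow (zc_comm hx hc hl)] at e
  have h1 : c ^ 2 ^ k = 1 := h.disj _ (pow_mem hc _) (by
    rw [eq_inv_of_mul_eq_one_left e]; exact inv_mem (pow_mem hl _))
  rw [h1, one_mul] at e
  exact ⟨c, hc, l, hl, rfl, h1, by rw [← sq]; exact A5.two h.iso hl e⟩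

theorem syl (hx : Cx π) {z : G} (h : Beta π z) {P : Subgroup G} (hP : IsPGroup 2 P) {t s : G}
    (ht : t ∈ Lz π z) (hs : s ∈ Lz π z) (htP : t ∈ P) (t2 : t * t = 1) (t1 : t ≠ 1) (s1 : s ≠ 1)
    (st : s ≠ t) (e : s * t = t * s) (hZ : ∀ c ∈ Zc π z, ∀ k, c ^ 2 ^ k = 1 → c ∈ P) {g : G}
    (hg : g ∈ P) (hgz : Com π g z) : ∃ c ∈ Zc π z, (∃ k, c ^ 2 ^ k = 1) ∧
      ∃ l, (l = 1 ∨ l = t ∨ l = s ∨ l = t * s) ∧ g = c * l := by
  obtain ⟨k, hk⟩ := hP ⟨g, hg⟩
  obtain ⟨c, hc, l, hl, rfl, ck, l2⟩ := dec_two hx h hgz (k := k) (congrArg Subtype.val hk)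
  have hlP : l ∈ P := (mul_mem_cancel_left (hZ c hc k ck)).1 hg
  obtain ⟨n, hn⟩ := hP ⟨l * t, mul_mem hlP htP⟩
  have h3 := A5.two h.iso (mul_mem hl ht) (k := n) (congrArg Subtype.val hn)
  refine ⟨c, hc, ⟨k, ck⟩, l, A5.cent h.iso ht hs hl t2 t1 s1 st e ?_, rfl⟩
  rw [pow_two] at h3
  rw [eq_inv_of_mul_eq_one_left h3, _root_.mul_inv_rev, inv_eq_of_mul_eq_one_right t2,
    inv_eq_of_mul_eq_one_right l2]

theorem two_cases (hx : Cx π) (h2 : (2 : K) ≠ 0) (hr : NR π) {z : G} (h : Beta π z)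
    (h4 : ¬ ∃ c ∈ Zc π z, c ^ 2 = z) {c : G} (hc : c ∈ Zc π z) {k : ℕ} (e : c ^ 2 ^ k = 1) :
    c = 1 ∨ c = z := by
  induction k generalizing c with
  | zero => exact .inl (by simpa using e)
  | succ k ih =>
    rcases ih (pow_mem hc 2) (by rw [← pow_mul, ← pow_succ']; exact e) with e' | e'
    · exact Zc_sq hx.inj h2 h.sq h.ne (hr z) hc e'
    · exact absurd ⟨c, hc, e'⟩ h4

theorem swap_sq (hx : Cx π) (h2 : (2 : K) ≠ 0) (hr : NR π) {z w : G} (h : Beta π z)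
    (hw : Anti π w z) (e : ∀ x ∈ Lz π z, w * w * x = x * (w * w)) : w * w = 1 := by
  obtain ⟨c, hc, l, hl, e1⟩ := h.dec _ (hw.mul_anti hw)
  have l1 : l = 1 := A5.center h.iso hl fun x hx' => by
    have := e x hx'
    rw [e1, ← mul_assoc, ← zc_comm hx hc hx', mul_assoc, mul_assoc] at this
    exact mul_left_cancel this
  rw [l1, mul_one] at e1
  have h3 := Zc_anti hx.inj h2 h.sq h.ne (hr z) hc hw
  have h4 : c ^ 2 = 1 := by
    rw [sq, ← eq_inv_iff_mul_eq_one, ← h3, ← e1]; group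
  rcases Zc_sq hx.inj h2 h.sq h.ne (hr z) hc h4 with e2 | e2
  · exact e1.trans e2
  · have : Com π z w := by rw [← e2, ← e1, ← sq]; exact com_pow w 2
    exact absurd hw.symm (this.not_anti h2)

end BB

open BB Subgroup

theorem Beta.conj {z : G} (h : Beta π z) (k : G) : Beta π (k * z * k⁻¹) := by
  have e : k⁻¹ * (k * z * k⁻¹) * k⁻¹⁻¹ = z := by group
  have hL : ∀ x ∈ Lz π (k * z * k⁻¹), k⁻¹ * x * k⁻¹⁻¹ ∈ Lz π z := fun x hx => by
    have := conj_mem_Lz hx k⁻¹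
    rwa [e] at this
  refine ⟨by rw [conj_pow, h.sq]; simp, fun e => h.ne (by simpa using e), ?_, fun g hg => ?_,
    fun c hc hl => ?_, fun t ht s hs t2 s2 t1 s1 ts ec => ?_⟩
  · obtain ⟨f⟩ := h.iso
    rw [Lz_conj]
    exact ⟨((Lz π z).equivMapOfInjective _ (MulAut.conj k).injective).symm.trans f⟩
  · have := conj_mem_Cz hg k⁻¹
    rw [e] at this
    obtain ⟨c, hc, l, hl, e1⟩ := h.dec _ this
    refine ⟨_, conj_mem_Zc hc k, _, conj_mem_Lz hl k, ?_⟩
    rw [show g = k * (k⁻¹ * g * k⁻¹⁻¹) * k⁻¹ by group, e1]; group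
  · have := conj_mem_Zc hc k⁻¹
    rw [e] at this
    exact conj_eq_one_iff.1 (h.disj _ this (hL c hl))
  · have := (h.anti _ (hL t ht) _ (hL s hs) (by rw [conj_pow, t2]; simp)
      (by rw [conj_pow, s2]; simp) (fun e => t1 (conj_eq_one_iff.1 e))
      (fun e => s1 (conj_eq_one_iff.1 e)) (by simpa using ts)
      (by simp only [conj_mul, ec])).conj k
    simpa [mul_assoc] using this

/-- no element of order four above a second conjugate -/
theorem Beta.n4 (hx : Cx π) (h2 : (2 : K) ≠ 0) (hr : NR π) {y c : G} (h : Beta π y)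
    (hc : Com π c y) (h4 : c ^ 4 = 1) : c ^ 2 = 1 ∨ c ^ 2 = y := by
  obtain ⟨k, hk, l, hl, rfl, k4, l2⟩ := dec_two hx h hc (k := 2) h4
  rw [Commute.mul_pow (zc_comm hx hk hl), pow_two l, l2, mul_one]
  exact Zc_sq hx.inj h2 h.sq h.ne (hr y) (pow_mem hk 2) (by rw [← pow_mul]; exact k4)

namespace BB

theorem exists_anti (hx : Cx π) (h2 : (2 : K) ≠ 0) (hr : NR π) {z : G} (h : Beta π z) :
    ∃ w, Anti π w z := by
  obtain ⟨y, hy, yz, e⟩ := hx.exists_partner h.sq h.ne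
  obtain ⟨g, rfl⟩ := isConj_iff.1 hy
  rcases com_or_anti (π := π) h.sq e with hc | hc
  swap
  · exact ⟨_, hc⟩
  obtain ⟨k, hk, l, hl, e1, k2, l2⟩ := dec_two hx h hc (k := 1) (h.conj g).sq
  have l1 : l ≠ 1 := by
    rintro rfl
    rw [mul_one] at e1
    rcases Zc_sq hx.inj h2 h.sq h.ne (hr z) hk k2 with e | e
    · exact (h.conj g).ne (e1.trans e)
    · exact yz (e1.trans e)
  obtain ⟨t, ht, t2, t1, tl, tc⟩ := A5.exists_comm h.iso hl l2 l1
  have h3 : Anti π l t := h.anti l hl t ht (by rw [sq, l2]) (by rw [sq, t2]) l1 t1 tl.symm tc.symm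
  have h4 := ((Com.zc (Lz_le z ht) hk).symm.mul_anti h3).symm.conj g⁻¹
  rw [← e1] at h4
  exact ⟨g⁻¹ * t * g⁻¹⁻¹, by simpa [mul_assoc] using h4⟩

/-- the case of an element of order four in `Zc` -/
theorem four_case (hx : Cx π) (h2 : (2 : K) ≠ 0) (hr : NR π) {z c : G} (h : Beta π z)
    (hn : ¬ ∃ w, Anti π w z ∧ ∀ l ∈ Lz π z, w * l = l * w) (hc : c ∈ Zc π z) (c2 : c ^ 2 = z) :
    False := by
  have zz1 : z * z = 1 := by rw [← sq, h.sq]
  have NC : ∀ y, IsConj z y → Com π y z → y = z := fun y hy hyz => by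
    obtain ⟨g, rfl⟩ := isConj_iff.1 hy
    rcases (h.conj g).n4 hx h2 hr (hyz.zc hc).symm
      (by rw [show 4 = 2 * 2 from rfl, pow_mul, c2, h.sq]) with e | e
    · exact absurd (c2.symm.trans e) h.ne
    · exact e.symm.trans c2
  obtain ⟨y, hy, yz, e⟩ := hx.exists_partner h.sq h.ne
  have ha : Anti π y z := (com_or_anti h.sq e).resolve_left fun hc => yz (NC y hy hc)
  obtain ⟨g, hg⟩ := isConj_iff.1 hy
  have hy' : Beta π y := hg ▸ h.conj g
  have yy : y * y = 1 := by rw [← sq, hy'.sq]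
  have yi : y⁻¹ = y := inv_eq_of_mul_eq_one_right yy
  rcases A5.outer2 h.iso (fun x => conj_Lz e) (by simp [yy]) with ⟨l, hl, e1⟩ | ⟨t, ht, t2, t1, tc⟩
  · exact hn ⟨_, Com.mul_anti (Lz_le z hl) ha, e1⟩
  have ht' := conj_Lz e ht
  have t0 : t ≠ 1 := by rintro rfl; simp at t1
  have a1 : Anti π (y * t * y⁻¹) t := h.anti _ ht' _ ht (by rw [conj_pow, sq, t2]; simp)
    (by rw [sq, t2]) (by simpa using t0) t0 t1 tc.symm
  obtain ⟨u, hu⟩ : ∃ u, u = t * (y * t * y⁻¹) := ⟨_, rfl⟩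
  have huL : u ∈ Lz π z := hu ▸ mul_mem ht ht'
  have a2 : Anti π t u := (hu ▸ (com_self t).mul_anti a1 :).symm
  have a3 : Com π (t * y) u := by
    have := (com_pow (π := π) (t * y) 2).symm
    rwa [show (t * y) ^ 2 = u by rw [hu, yi, pow_two]; group] at this
  have a4 : Anti π y u := by simpa using a2.inv.mul_com a3
  have a5 : Com π (z * u) y := ha.symm.mul_anti a4.symm
  obtain ⟨d, hd, d2⟩ : ∃ d ∈ Zc π y, d ^ 2 = y :=
    ⟨_, hg ▸ conj_mem_Zc hc g, by rw [conj_pow, c2, hg]⟩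
  have e1 := Zc_anti hx.inj h2 hy'.sq hy'.ne (hr y) hd ha.symm
  have e2 := Zc_anti hx.inj h2 h.sq h.ne (hr z) hc ha
  have e3 : z * u * d = d * (z * u) := (a5.zc hd).comm hx.inj
  have e4 : t * z = z * t := Com.comm hx.inj (Lz_le z ht)
  have e5 : c * z = z * c := Com.comm hx.inj (Zc_le_Cz z hc)
  have e6 : u * y = y * u := a4.symm.comm hx.inj
  have f1 : d * z * d⁻¹ = y * z :=
    calc d * z * d⁻¹ = d * (z * d * z⁻¹)⁻¹ * z := by group
      _ = y * z := by rw [e1, inv_inv, ← pow_two, d2]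
  have f2 : c * y * c⁻¹ = z * y :=
    calc c * y * c⁻¹ = c * (y * c * y⁻¹)⁻¹ * y := by group
      _ = z * y := by rw [e2, inv_inv, ← pow_two, c2]
  have f3 : (t * c) * (y * z) * (t * c)⁻¹ = y * z * (z * u) :=
    calc (t * c) * (y * z) * (t * c)⁻¹ = t * (c * y * c⁻¹ * (c * z * c⁻¹)) * t⁻¹ := by group
      _ = t * (y * t⁻¹ * y⁻¹) * y := by
        rw [f2, e5, mul_inv_cancel_right, ← e, mul_assoc y, zz1]; group
      _ = y * z * (z * u) := by
        rw [inv_eq_of_mul_eq_one_right t2, ← hu, e6, mul_assoc y, ← mul_assoc z, zz1, one_mul]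
  have f4 : d⁻¹ * (y * z * (z * u)) * d⁻¹⁻¹ = u :=
    calc d⁻¹ * (y * z * (z * u)) * d⁻¹⁻¹ = d⁻¹ * (y * z) * (z * u * d) := by group
      _ = z * z * u := by rw [← f1, e3]; group
      _ = u := by rw [zz1, one_mul]
  have hcu : IsConj z u :=
    ((isConj_iff.2 ⟨_, f1⟩).trans (isConj_iff.2 ⟨_, f3⟩)).trans (isConj_iff.2 ⟨_, f4⟩)
  exact h.ne (h.disj z (self_mem_Zc z) (NC u hcu (Lz_le z huL) ▸ huL))

section Fin

variable {T : Subgroup G} {z t u r : G}

/-- what is used of the Sylow subgroup `Z₂ × D₈` of the centraliser -/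
structure TT (π : G →* PG4 K) (T : Subgroup G) (z t u : G) : Prop where
  zT : z ∈ T
  tT : t ∈ T
  z2 : z * z = 1
  t2 : t * t = 1
  u2 : u * u = 1
  u1 : u ≠ 1
  zc : ∀ x ∈ T, x * z = z * x
  uc : ∀ x ∈ T, x * u = u * x
  com : Com π t z
  anti : Anti π t u
  A : ∀ x ∈ T, Anti π x z → x * t * x⁻¹ = t * u
  B : ∀ x ∈ T, x * t * x⁻¹ = t ∨ x * t * x⁻¹ = t * u
  C : ∀ x ∈ T, ∀ n ∈ T, n * t * n⁻¹ = t * u → x * t = t * x → x * n = n * x →
    x = 1 ∨ x = z ∨ x = u ∨ x = z * u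

theorem TT.swap (h : TT π T z t u) (hn : r ∈ normalizer (T : Set G)) (ru : r * u * r⁻¹ = u)
    (rz : r * z * r⁻¹ = z * u) : r * t * r⁻¹ * t * (r * t * r⁻¹)⁻¹ = t * u := by
  refine h.A _ ((mem_normalizer_iff.1 hn t).1 h.tT) ?_
  have h1 := h.com.conj r
  have h2 := h.anti.conj r
  rw [rz] at h1
  rw [ru] at h2
  have := (h1.symm.mul_anti h2.symm).symm
  rwa [mul_assoc z, h.u2, mul_one] at this

theorem TT.fin3 (hx : Cx π) (h2 : (2 : K) ≠ 0) (h : TT π T z t u)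
    (hn : r ∈ normalizer (T : Set G)) (rz : r * z * r⁻¹ = z * u) (ru : r * u * r⁻¹ = u)
    (rr : r * r = 1) : False := by
  have h1 := h.swap hn ru rz
  have wT := (mem_normalizer_iff.1 hn t).1 h.tT
  have ri : r⁻¹ = r := inv_eq_of_mul_eq_one_right rr
  have e1 : r * (r * t * r⁻¹) * r⁻¹ = t := by
    rw [show r * (r * t * r⁻¹) * r⁻¹ = r * r * t * (r * r)⁻¹ by group, rr]; group
  have e0 : (t * r) ^ 2 = t * (r * t * r⁻¹) := by rw [ri, pow_two]; group
  have w2 : (r * t * r⁻¹) * (r * t * r⁻¹) = 1 := by rw [conj_mul, h.t2]; group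
  generalize hw : r * t * r⁻¹ = w at *
  have e2 : (t * w) ^ 2 = u :=
    calc (t * w) ^ 2 = t * (w * t * w⁻¹) * (w * w) := by rw [pow_two]; group
      _ = u := by rw [h1, w2, ← mul_assoc, h.t2, one_mul, mul_one]
  have a1 : Com π (t * r) u := by
    have := (com_pow (π := π) (t * r) (2 * 2)).symm
    rwa [pow_mul, e0, e2] at this
  have a2 : Anti π r u := by simpa using h.anti.inv.mul_com a1
  have e3 : t * w * z * r = r * (t * w * z) := by
    rw [eq_comm, ← mul_inv_eq_iff_eq_mul, ← conj_mul, ← conj_mul, hw, e1, rz,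
      mul_inv_eq_iff_eq_mul.1 h1, mul_assoc t u, ← h.uc w wT, h.uc z h.zT]
    rw [mul_assoc, mul_assoc, ← mul_assoc u, h.u2, one_mul, mul_assoc]
  have e4 : t * w * z * (t * w * z) = u := by
    rw [mul_assoc, ← mul_assoc z, ← h.zc _ (mul_mem h.tT wT), mul_assoc _ z, h.z2, mul_one,
      ← pow_two, e2]
  have a3 : Com π u r := by
    rw [← e4]
    rcases com_or_anti (π := π) (by rw [pow_two, rr]) e3 with c | c
    exacts [c.mul c, c.mul_anti c]
  exact a3.not_anti h2 a2.symm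

theorem TT.fin2 (hx : Cx π) (h2 : (2 : K) ≠ 0) (h : TT π T z t u)
    (hn : r ∈ normalizer (T : Set G)) (rz : r * z * r⁻¹ = z * u) (ru : r * u * r⁻¹ = u)
    (rT : r * r ∈ T) (rr : r * r * t * (r * r)⁻¹ = t) : False := by
  have wT := (mem_normalizer_iff.1 hn t).1 h.tT
  have e : r * r * (r * t * r⁻¹) = r * t * r⁻¹ * (r * r) := by
    rw [← mul_inv_eq_iff_eq_mul]
    calc r * r * (r * t * r⁻¹) * (r * r)⁻¹ = r * (r * r * t * (r * r)⁻¹) * r⁻¹ := by group
      _ = _ := by rw [rr]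
  have e1 : r * (r * r) * r⁻¹ = r * r := by group
  rcases h.C _ rT _ wT (h.swap hn ru rz) (mul_inv_eq_iff_eq_mul.1 rr) e with c | c | c | c
  · exact h.fin3 hx h2 hn rz ru c
  · rw [c, rz] at e1
    exact h.u1 (by simpa using e1)
  · refine h.fin3 (r := r * z) hx h2 (mul_mem hn (le_normalizer h.zT)) ?_ ?_ ?_
    · rw [← rz]; group
    · rw [mul_assoc r, h.uc z h.zT]; exact Eq.trans (by group) ru
    · calc r * z * (r * z) = r * z * r⁻¹ * (r * r) * z := by group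
        _ = 1 := by rw [rz, c, mul_assoc z, h.u2, mul_one, h.z2]
  · rw [c, ← conj_mul, rz, ru, mul_assoc, h.u2] at e1
    exact h.u1 (mul_left_cancel e1).symm

theorem TT.fin1 (hx : Cx π) (h2 : (2 : K) ≠ 0) (h : TT π T z t u)
    (hn : r ∈ normalizer (T : Set G)) (rz : r * z * r⁻¹ = z * u) (ru : r * u * r⁻¹ = u)
    (rT : r * r ∈ T) : False := by
  rcases h.B _ rT with c | c
  · exact h.fin2 hx h2 hn rz ru rT c
  have wT := (mem_normalizer_iff.1 hn t).1 h.tT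
  have e : r * t * (r * t) = r * t * r⁻¹ * (r * r) * t := by group
  refine h.fin2 (r := r * t) hx h2 (mul_mem hn (le_normalizer h.tT)) ?_ ?_ ?_ ?_
  · rw [mul_assoc r, h.zc t h.tT, ← rz]; group
  · rw [mul_assoc r, h.uc t h.tT]; exact Eq.trans (by group) ru
  · rw [e]; exact mul_mem (mul_mem wT rT) h.tT
  · calc r * t * (r * t) * t * (r * t * (r * t))⁻¹
        = r * t * r⁻¹ * (r * r * t * (r * r)⁻¹) * (r * t * r⁻¹)⁻¹ := by group
      _ = t := by
        rw [c, ← conj_mul, h.swap hn ru rz, h.uc _ wT, mul_inv_cancel_right, mul_assoc, h.u2,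
          mul_one]

end Fin

/-! ### the group `Z₂ × D₈` -/

abbrev MM := Multiplicative (ZMod 2) × DihedralGroup 4

def mz : MM := (Multiplicative.ofAdd 1, 1)
def mt : MM := (1, .sr 0)
def mw : MM := (1, .sr 1)
def mu : MM := (1, .r 2)

theorem m_inj : ∀ m : MM, m = 1 ∨ m = mz ∨ m = mz * mu ∨ m = mu ∨ m * mt * m⁻¹ * mt⁻¹ = mu ∨
    m * mw * m⁻¹ * mw⁻¹ = mu := by decide

theorem m_sq : ∀ m : MM, m * m = 1 ∨ m * m = mu := by decide

theorem m_cen : ∀ m : MM, m * mz = mz * m ∧ m * mu = mu * m := by decide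

theorem m_A : ∀ m : MM, m * mt * m⁻¹ = mt * mu ∨ m = 1 ∨ m = mz ∨ m = mt ∨ m = mu ∨ m = mz * mt ∨
    m = mz * mu ∨ m = mt * mu ∨ m = mz * mt * mu := by decide

theorem m_B : ∀ m : MM, m * mt * m⁻¹ = mt ∨ m * mt * m⁻¹ = mt * mu := by decide

set_option synthInstance.maxSize 2000 in
theorem m_C : ∀ m n : MM, n * mt * n⁻¹ = mt * mu → m * mt = mt * m → m * n = n * m →
    m = 1 ∨ m = mz ∨ m = mu ∨ m = mz * mu := by decide

theorem exists_psi {z t w : G} (z2 : z * z = 1) (t2 : t * t = 1) (w2 : w * w = 1)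
    (zt : t * z = z * t) (zw : w * z = z * w) (h1 : w * t * w⁻¹ ≠ t)
    (hc : t * (w * t * w⁻¹) = w * t * w⁻¹ * t) (z1 : z ≠ 1) (zu : z ≠ t * (w * t * w⁻¹)) :
    ∃ ψ : MM →* G, Function.Injective ψ ∧ ψ mz = z ∧ ψ mt = t ∧ ψ mw = w ∧
      ψ mu = t * (w * t * w⁻¹) := by
  have wi : w⁻¹ = w := inv_eq_of_mul_eq_one_right w2
  have ti : t⁻¹ = t := inv_eq_of_mul_eq_one_right t2
  have e2 : (t * w) ^ 2 = t * (w * t * w⁻¹) := by rw [wi, pow_two]; group
  have u2 : t * (w * t * w⁻¹) * (t * (w * t * w⁻¹)) = 1 := by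
    nth_rw 1 [hc]
    rw [mul_assoc, ← mul_assoc t, t2, one_mul, conj_mul, t2]; group
  have u1 : t * (w * t * w⁻¹) ≠ 1 := fun e => h1 (by rw [← inv_eq_of_mul_eq_one_right e, ti])
  have ho : orderOf (t * w) = 4 := by
    refine orderOf_eq_prime_pow (p := 2) (n := 1) (by rw [pow_one, e2]; exact u1) ?_
    rw [show 2 ^ (1 + 1) = 2 * 2 from rfl, pow_mul, e2, pow_two, u2]
  obtain ⟨f, -, fr, fs⟩ := TwoGrp.exists_dihedral_hom ho t2
    (by rw [_root_.mul_inv_rev, wi, ← mul_assoc, t2, one_mul]) (by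
      rintro ⟨i, hi⟩
      have : (t * w) * t = t * (t * w) := by
        have := (Commute.refl (t * w)).zpow_right i
        rwa [show (t * w) ^ i = t from hi] at this
      rw [mul_assoc, mul_left_cancel_iff] at this
      exact h1 (by rw [this]; group))
  have h01 : ∀ a : Multiplicative (ZMod 2), a = 1 ∨ a = Multiplicative.ofAdd 1 := by decide
  have h02 : (Multiplicative.ofAdd 1 : Multiplicative (ZMod 2)) ≠ 1 := by decide
  have h03 : (Multiplicative.ofAdd 1 * Multiplicative.ofAdd 1 : Multiplicative (ZMod 2)) = 1 := by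
    decide
  let φ : Multiplicative (ZMod 2) →* G := MonoidHom.mk' (fun a => if a = 1 then 1 else z)
    fun a b => by rcases h01 a with rfl | rfl <;> rcases h01 b with rfl | rfl <;> simp [h02, h03, z2]
  have ρz : Commute z (t * w) := (Commute.symm zt).mul_right (Commute.symm zw)
  have hφ : ∀ a d, Commute (φ a) (f d) := fun a d => by
    have : Commute z (f d) := by
      rcases d with i | i <;> obtain ⟨i, rfl⟩ := ZMod.intCast_surjective i
      · rw [fr]; exact ρz.zpow_right i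
      · rw [fs]; exact (Commute.symm zt).mul_right (ρz.zpow_right i)
    rcases h01 a with rfl | rfl
    · simp
    · simpa [φ, h02] using this
  have ez : (φ.noncommCoprod f hφ) mz = z := by simp [mz, φ, h02]
  have eu : (φ.noncommCoprod f hφ) mu = t * (w * t * w⁻¹) := by
    have := fr 2
    rw [zpow_ofNat, e2] at this
    simpa [mu] using this
  refine ⟨φ.noncommCoprod f hφ, (injective_iff_map_eq_one _).2 fun m hm => ?_, ez,
    by simpa [mt] using fs 0, by simpa [mw, ← mul_assoc, t2] using fs 1, eu⟩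
  rcases m_inj m with e | e | e | e | e | e
  · exact e
  · exact absurd (by rw [← ez, ← e, hm]) z1
  · rw [e, map_mul, ez, eu] at hm
    exact absurd ((eq_inv_of_mul_eq_one_left hm).trans (inv_eq_of_mul_eq_one_right u2)) zu
  · exact absurd (by rw [← eu, ← e, hm]) u1
  · exact absurd (by rw [← eu, ← e]; simp only [map_mul, map_inv, hm]; group) u1
  · exact absurd (by rw [← eu, ← e]; simp only [map_mul, map_inv, hm]; group) u1

theorem two_case (hx : Cx π) (h2 : (2 : K) ≠ 0) (hr : NR π) {z : G} (h : Beta π z)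
    (hn : ¬ ∃ w, Anti π w z ∧ ∀ l ∈ Lz π z, w * l = l * w) (h4 : ¬ ∃ c ∈ Zc π z, c ^ 2 = z) :
    False := by
  haveI := hx.simple
  have z2 : z * z = 1 := by rw [← pow_two, h.sq]
  obtain ⟨w0, hw0⟩ := exists_anti hx h2 hr h
  rcases A5.outer1 h.iso (fun x => conj_Lz (hw0.comm hx.inj)) with ⟨l, hl, e1⟩ | ⟨l, hl, e1⟩
  · exact hn ⟨_, Com.mul_anti (Lz_le z hl) hw0, e1⟩
  have hw : Anti π (l * w0) z := Com.mul_anti (Lz_le z hl) hw0
  generalize l * w0 = w at hw e1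
  have w2 := swap_sq hx h2 hr h hw e1
  rcases A5.outer2 h.iso (fun x => conj_Lz (hw.comm hx.inj)) e1 with
    ⟨l, hl, e1⟩ | ⟨t, ht, t2, t1, tc⟩
  · exact hn ⟨_, Com.mul_anti (Lz_le z hl) hw, e1⟩
  have ht' := conj_Lz (hw.comm hx.inj) ht
  have huL := mul_mem ht ht'
  have t0 : t ≠ 1 := by rintro rfl; simp at t1
  have zu : z ≠ t * (w * t * w⁻¹) := fun e => h.ne (h.disj z (self_mem_Zc z) (e ▸ huL))
  have a1 : Anti π (w * t * w⁻¹) t := h.anti _ ht' _ ht (by rw [conj_pow, pow_two, t2]; simp)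
    (by rw [pow_two, t2]) (by simpa using t0) t0 t1 tc.symm
  have a2 := ((com_self t).mul_anti a1).symm
  obtain ⟨ψ, hψ, ez, et, ew, eu⟩ := exists_psi z2 t2 w2 (Com.comm hx.inj (Lz_le z ht))
    (hw.comm hx.inj) t1 tc h.ne zu
  generalize t * (w * t * w⁻¹) = u at huL zu a2 eu
  have hne : ∀ {a b : MM}, a ≠ b → ψ a ≠ ψ b := fun h => hψ.ne h
  have zT : z ∈ ψ.range := ⟨_, ez⟩
  have tT : t ∈ ψ.range := ⟨_, et⟩
  have uT : u ∈ ψ.range := ⟨_, eu⟩
  have wT : w ∈ ψ.range := ⟨_, ew⟩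
  have hT : TT π ψ.range z t u := by
    refine ⟨zT, tT, z2, t2, by rw [← eu, ← map_mul, ← map_one ψ]; congr 1, ?_, ?_, ?_, Lz_le z ht,
      a2, ?_, ?_, ?_⟩
    · rw [← eu, ← map_one ψ]; exact hne (by decide)
    · rintro _ ⟨m, rfl⟩; rw [← ez, ← map_mul, ← map_mul, (m_cen m).1]
    · rintro _ ⟨m, rfl⟩; rw [← eu, ← map_mul, ← map_mul, (m_cen m).2]
    · rintro _ ⟨m, rfl⟩ ha
      have c1 : z ∈ Cz π z := com_self z
      have c2 := Lz_le z ht
      have c3 := Lz_le z huL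
      rcases m_A m with e | e
      · simpa [et, eu] using congrArg ψ e
      · refine absurd ha (Com.not_anti h2 (mem_Cz.1 ?_))
        rcases e with rfl | rfl | rfl | rfl | rfl | rfl | rfl | rfl <;>
          simp only [map_mul, map_one, ez, et, eu, mul_mem, one_mem, c1, c2, c3]
    · rintro _ ⟨m, rfl⟩
      rcases m_B m with e | e
      · left; simpa [et] using congrArg ψ e
      · right; simpa [et, eu] using congrArg ψ e
    · rintro _ ⟨m, rfl⟩ _ ⟨n, rfl⟩ a b c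
      rcases m_C m n (hψ (by simpa [et, eu] using a)) (hψ (by simpa [et] using b))
        (hψ (by simpa using c)) with rfl | rfl | rfl | rfl <;> simp [ez, eu]
  have hp : IsPGroup 2 ψ.range :=
    (IsPGroup.of_card (n := 4) (by simp [MM, DihedralGroup.card])).of_surjective
      ψ.rangeRestrict ψ.rangeRestrict_surjective
  obtain ⟨S, hS, e | ⟨r, rS, rT, rr, rn⟩⟩ := exists_r hp
  · exact Cfsg.Agent.S3309.result S ⟨(MulEquiv.subgroupCongr e).trans (ψ.ofInjective hψ).symm⟩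
      hx.nonab
  have hC : ∀ g ∈ (S : Subgroup G), Com π g z → g ∈ ψ.range := fun g hg hgz => by
    obtain ⟨c, hc, ⟨k, hk⟩, l, hl, rfl⟩ := syl hx h S.isPGroup' huL ht (hS uT) hT.u2 hT.u1 t0
      (by rw [← eu, ← et]; exact hne (by decide)) (hT.uc t tT) (fun c hc k hk => by
        rcases two_cases hx h2 hr h h4 hc hk with rfl | rfl
        exacts [one_mem _, hS zT]) hg hgz
    refine mul_mem ?_ ?_
    · rcases two_cases hx h2 hr h h4 hc hk with rfl | rfl
      exacts [one_mem _, zT]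
    · rcases hl with rfl | rfl | rfl | rfl
      exacts [one_mem _, uT, tT, mul_mem uT tT]
  have rz : r * z * r⁻¹ ≠ z := fun e => rT (by
    rcases com_or_anti (π := π) h.sq (mul_inv_eq_iff_eq_mul.1 e) with c | c
    · exact hC r rS c
    · exact (mul_mem_cancel_right wT).1 (hC _ (mul_mem rS (hS wT)) (c.mul_anti hw)))
  have ru : r * u * r⁻¹ = u := by
    obtain ⟨m, hm⟩ := (mem_normalizer_iff.1 rn _).1 (⟨mt * mw, rfl⟩ : ψ (mt * mw) ∈ ψ.range)
    have e : r * u * r⁻¹ = ψ (m * m) := by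
      rw [map_mul, hm, conj_mul, ← map_mul, ← eu]; rfl
    rcases m_sq m with e' | e'
    · rw [e', map_one, conj_eq_one_iff] at e
      exact absurd e hT.u1
    · rw [e, e', eu]
  have hc : ∀ x ∈ ψ.range, r * z * r⁻¹ * x = x * (r * z * r⁻¹) := fun x hx => by
    have := hT.zc _ ((mem_normalizer_iff''.1 rn x).1 hx)
    calc r * z * r⁻¹ * x = r * (z * (r⁻¹ * x * r)) * r⁻¹ := by group
      _ = _ := by rw [← this]; group
  rcases hT.C _ ((mem_normalizer_iff.1 rn z).1 zT) w wT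
    (hT.A w wT hw) (hc t tT) (hc w wT) with e | e | e | e
  · exact h.ne (conj_eq_one_iff.1 e)
  · exact rz e
  · exact zu (by simpa using e.trans ru.symm)
  · exact hT.fin1 hx h2 rn e ru rr

end BB

theorem Beta.exists_swap (hx : Cx π) (h2 : (2 : K) ≠ 0) (hr : NR π) {z : G} (h : Beta π z) :
    ∃ w, Anti π w z ∧ ∀ l ∈ Lz π z, w * l = l * w := by
  by_contra hn
  by_cases h4 : ∃ c ∈ Zc π z, c ^ 2 = z
  · obtain ⟨c, hc, c2⟩ := h4
    exact four_case hx h2 hr h hn hc c2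
  · exact two_case hx h2 hr h hn h4

end CfsgLib.D4
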